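import Cfsg.Agent.H851.SimsDefs
import Cfsg.Agent.Transfer.PGroupNormal

/-!
# S3386: basic facts on the almost simple configuration

* `Cfg.normalizer_eq` : `N_G(Y) = A` for `1 ≠ Y ⊴ A`;
* `Cfg.disj`, `Cfg.cop` : `|E| ≤ c` for `E ≤ A`, `E ∩ Q = 1`;
* `Cfg.inter_ne_bot` : `Q ∩ S ≠ 1` if `A ∩ S ≠ 1`;
* `Cfg.exists_Z` : a normal subgroup `Z ≠ 1` of `A` in `Q ∩ S` with `|Z| ≤ c ^ c`, `C_G(Z) ≤ A`;
* `Cfg.exists_s` : an element `s ∈ S \ A` with `|A : A ∩ sAs⁻¹| ≤ c`;
* `Cfg.bound_of_large` : no such configuration exists if small `r'`-subgroups of `S` centralise big `r`-subgroups.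
-/

set_option autoImplicit false
set_option linter.unusedSectionVars false

namespace Cfsg.Agent.H851.Sims

/-! ### elementary abelian groups with few generators -/

theorem card_closure_le {M : Type*} [CommGroup M] [Finite M] {p : ℕ} (hp : 0 < p) (s : Finset M)
    (hs : ∀ x ∈ s, x ^ p = 1) : Nat.card (Subgroup.closure (s : Set M)) ≤ p ^ s.card := by
  classical
  induction s using Finset.induction_on with
  | empty => simp
  | insert x s hx ih =>
    have ih' := ih fun y hy => hs y (Finset.mem_insert_of_mem hy)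
    have h1 : Subgroup.closure ((insert x s : Finset M) : Set M) = Subgroup.zpowers x ⊔ Subgroup.closure (s : Set M) := by
      rw [Finset.coe_insert, Set.insert_eq, Subgroup.closure_union, Subgroup.zpowers_eq_closure]
    rw [h1, Finset.card_insert_of_notMem hx, pow_succ]
    have h2 : Nat.card (Subgroup.zpowers x ⊔ Subgroup.closure (s : Set M) : Subgroup M) ≤
        Nat.card (Subgroup.zpowers x) * Nat.card (Subgroup.closure (s : Set M)) := by
      have h3 : (Subgroup.closure (s : Set M)).relIndex (Subgroup.zpowers x ⊔ Subgroup.closure (s : Set M)) =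
          (Subgroup.closure (s : Set M)).relIndex (Subgroup.zpowers x) := Subgroup.relIndex_sup_right _ _
      have h4 : (Subgroup.closure (s : Set M)).relIndex (Subgroup.zpowers x) ≤ Nat.card (Subgroup.zpowers x) := by
        unfold Subgroup.relIndex
        exact Nat.le_of_dvd Nat.card_pos (Subgroup.index_dvd_card _)
      have h5 := Subgroup.relIndex_mul_relIndex ⊥ (Subgroup.closure (s : Set M))
        (Subgroup.zpowers x ⊔ Subgroup.closure (s : Set M)) bot_le le_sup_right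
      rw [Subgroup.relIndex_bot_left, Subgroup.relIndex_bot_left, h3] at h5
      rw [← h5, mul_comm]
      exact Nat.mul_le_mul_right _ h4
    refine le_trans h2 ?_
    have h6 : Nat.card (Subgroup.zpowers x) ≤ p := by
      rw [Nat.card_zpowers]
      exact Nat.le_of_dvd hp (orderOf_dvd_of_pow_eq_one (hs x (Finset.mem_insert_self _ _)))
    rw [mul_comm]
    exact Nat.mul_le_mul ih' h6

variable {G : Type*} [Group G] [Finite G] {c p : ℕ} {S A Q : Subgroup G} {g : G}

theorem Cfg.normalizer_eq (h : Cfg c p S A Q g) {Y : Subgroup G} (h1 : Y ≠ ⊥) (h2 : Y ≤ A)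
    (h3 : A ≤ Subgroup.normalizer (Y : Set G)) : Subgroup.normalizer (Y : Set G) = A := by
  have hS := h.norm
  have hs := h.simple
  by_contra hne
  have h4 : Subgroup.normalizer (Y : Set G) = ⊤ := h.coatom.2 _ (lt_of_le_of_ne h3 (Ne.symm hne))
  have hY : Y.Normal := Subgroup.normalizer_eq_top_iff.1 h4
  have h5 : (Y.subgroupOf S).Normal := inferInstance
  rcases h5.eq_bot_or_eq_top with h6 | h6
  · rw [Subgroup.subgroupOf_eq_bot] at h6
    apply h1
    rw [eq_bot_iff, ← h.cent]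
    intro y hy
    rw [Subgroup.mem_centralizer_iff]
    intro s hs'
    have h7 : y * s * y⁻¹ * s⁻¹ ∈ Y := by
      have : y * s * y⁻¹ * s⁻¹ = y * (s * y⁻¹ * s⁻¹) := by group
      rw [this]
      exact mul_mem hy (hY.conj_mem _ (inv_mem hy) _)
    have h8 : y * s * y⁻¹ * s⁻¹ ∈ S := mul_mem (hS.conj_mem _ hs' _) (inv_mem hs')
    have h9 : y * s * y⁻¹ * s⁻¹ = 1 := Subgroup.disjoint_def.1 h6 h7 h8
    have h10 : y * s * y⁻¹ = s := mul_inv_eq_one.1 h9
    exact (mul_inv_eq_iff_eq_mul.1 h10).symm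
  · rw [Subgroup.subgroupOf_eq_top] at h6
    exact h.notle (le_trans h6 h2)

theorem Cfg.relIndex_le (h : Cfg c p S A Q g) {E : Subgroup G} (hE : E ≤ A) : Q.relIndex E ≤ c := by
  refine le_trans (Subgroup.relIndex_le_of_le_right hE ?_) h.Qidx
  exact Subgroup.index_ne_zero_of_finite

theorem Cfg.disj (h : Cfg c p S A Q g) {E : Subgroup G} (hE : E ≤ A) (hQ : E ⊓ Q = ⊥) : Nat.card E ≤ c := by
  refine le_trans (le_of_eq ?_) (h.relIndex_le hE)
  rw [← Subgroup.inf_relIndex_left, hQ, Subgroup.relIndex_bot_left]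

theorem Cfg.cop (h : Cfg c p S A Q g) {r : ℕ} (hr : r.Prime) (hrp : r ≠ p) {E : Subgroup G} (hE : E ≤ A)
    (hEp : IsPGroup r E) : Nat.card E ≤ c := by
  have := Fact.mk hr
  have := Fact.mk h.prime
  apply h.disj hE
  have h1 : IsPGroup r ↥(E ⊓ Q) := hEp.to_le inf_le_left
  have h2 : IsPGroup p ↥(E ⊓ Q) := h.Qp.to_le inf_le_right
  have h3 := IsPGroup.disjoint_of_ne r p hrp _ _ h1 h2
  rwa [disjoint_self] at h3

theorem Cfg.inter_ne_bot (h : Cfg c p S A Q g) (hAS : A ⊓ S ≠ ⊥) : Q ⊓ S ≠ ⊥ := by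
  have hS := h.norm
  intro h0
  apply hAS
  have h1 : A ⊓ S ≤ Q := by
    refine le_trans (fun x hx => Subgroup.mem_inf.2 ⟨?_, hx.1⟩) h.Qcent
    rw [Subgroup.mem_centralizer_iff]
    intro q hq
    have h2 : x * q * x⁻¹ ∈ Q := (Subgroup.mem_normalizer_iff.1 (h.Qnorm hx.1) q).1 hq
    have h3 : x * q * x⁻¹ * q⁻¹ ∈ Q ⊓ S := by
      refine Subgroup.mem_inf.2 ⟨mul_mem h2 (Q.inv_mem hq), ?_⟩
      have h4 : x * q * x⁻¹ * q⁻¹ = x * (q * x⁻¹ * q⁻¹) := by group
      rw [h4]
      exact mul_mem hx.2 (hS.conj_mem _ (inv_mem hx.2) _)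
    rw [h0, Subgroup.mem_bot, mul_inv_eq_one] at h3
    exact (mul_inv_eq_iff_eq_mul.1 h3).symm
  rw [eq_bot_iff, ← h0]
  exact le_inf h1 inf_le_right

/-- A small normal subgroup of `A`. -/
theorem Cfg.exists_Z (h : Cfg c p S A Q g) (hAS : A ⊓ S ≠ ⊥) : ∃ Z : Subgroup G, Z ≠ ⊥ ∧ Z ≤ Q ⊓ S ∧
    A ≤ Subgroup.normalizer (Z : Set G) ∧ Nat.card Z ≤ c ^ c ∧ Subgroup.centralizer (Z : Set G) ≤ A := by
  classical
  have hS := h.norm
  have := Fact.mk h.prime
  have h0 := h.inter_ne_bot hAS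
  -- a central element of order p of `Q` in `S`
  let N : Subgroup ↥Q := S.subgroupOf Q
  have hN : N.Normal := inferInstance
  have hN1 : N ≠ ⊥ := by
    intro h1
    rw [Subgroup.subgroupOf_eq_bot] at h1
    apply h0
    rw [inf_comm]
    exact disjoint_iff.1 h1
  obtain ⟨w, hwN, hwc, hwo⟩ := Cfsg.Agent.Transfer.PGroupNormal.exists_mem_inf_center_orderOf h.Qp N hN1
  have hw1 : w ≠ 1 := by
    rintro rfl
    rw [orderOf_one] at hwo
    exact h.prime.one_lt.ne hwo
  have hw : w ∈ N ⊓ Subgroup.center ↥Q := ⟨hwN, hwc⟩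
  have hwp : w ^ p = 1 := by rw [← hwo, pow_orderOf_eq_one]
  -- the conjugates
  let C : Subgroup G := (Subgroup.center ↥Q).map Q.subtype
  have hwC : (w : G) ∈ C := ⟨w, hw.2, rfl⟩
  have hwS : (w : G) ∈ S := hw.1
  have hCmem : ∀ {x : G}, x ∈ C ↔ x ∈ Q ∧ ∀ q ∈ Q, q * x = x * q := by
    intro x
    constructor
    · rintro ⟨y, hy, rfl⟩
      exact ⟨y.2, fun q hq => congrArg Subtype.val (Subgroup.mem_center_iff.1 hy ⟨q, hq⟩)⟩
    · rintro ⟨h1, h2⟩
      exact ⟨⟨x, h1⟩, Subgroup.mem_center_iff.2 fun q => Subtype.ext (h2 q q.2), rfl⟩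
  have hCA : ∀ a ∈ A, ∀ x ∈ C, a * x * a⁻¹ ∈ C := by
    intro a ha x hx
    rw [hCmem] at hx ⊢
    have h1 := fun q => Subgroup.mem_normalizer_iff.1 (h.Qnorm ha) q
    refine ⟨(h1 x).1 hx.1, fun q hq => ?_⟩
    have h2 : a⁻¹ * q * a ∈ Q := by
      rw [h1]
      convert hq using 1
      group
    have h3 := hx.2 _ h2
    calc q * (a * x * a⁻¹) = a * (a⁻¹ * q * a * x) * a⁻¹ := by group
      _ = a * (x * (a⁻¹ * q * a)) * a⁻¹ := by rw [h3]
      _ = _ := by group
  have hCcomm : ∀ x y : ↥C, x * y = y * x := by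
    intro x y
    apply Subtype.ext
    exact (hCmem.1 y.2).2 x (hCmem.1 x.2).1
  let _ : CommGroup ↥C := { (inferInstance : Group ↥C) with mul_comm := hCcomm }
  have hfin : Finite ↥A := inferInstance
  let f : ↥A → ↥C := fun a => ⟨a * w * (a : G)⁻¹, hCA a a.2 w hwC⟩
  let O : Finset ↥C := (Set.toFinite (Set.range f)).toFinset
  have hO : ∀ x, x ∈ O ↔ ∃ a : ↥A, f a = x := by
    intro x
    simp only [O, Set.Finite.mem_toFinset, Set.mem_range]
  have hOcard : O.card ≤ c := by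
    have h1 : O.card = Nat.card (Set.range f) := by
      rw [← Set.ncard_coe_finset]
      have : (O : Set ↥C) = Set.range f := by
        ext x
        exact hO x
      rw [this]
      rfl
    rw [h1]
    have h2 : Nat.card (Set.range f) ≤ Nat.card (↥A ⧸ Q.subgroupOf A) := by
      have hwd : ∀ a b : ↥A, (QuotientGroup.leftRel (Q.subgroupOf A)) a b → f a = f b := by
        intro a b hab
        rw [QuotientGroup.leftRel_apply] at hab
        have hab' : (a : G)⁻¹ * b ∈ Q := hab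
        apply Subtype.ext
        show (a : G) * w * (a : G)⁻¹ = b * w * (b : G)⁻¹
        have h3 := (hCmem.1 hwC).2 _ hab'
        calc (a : G) * w * (a : G)⁻¹ = a * (w * ((a : G)⁻¹ * b)) * (b : G)⁻¹ := by group
          _ = a * ((a : G)⁻¹ * b * w) * (b : G)⁻¹ := by rw [h3]
          _ = _ := by group
      let F : (↥A ⧸ Q.subgroupOf A) → Set.range f := Quotient.lift (fun a => (⟨f a, a, rfl⟩ : Set.range f))
        fun a b hab => Subtype.ext (hwd a b hab)
      refine Nat.card_le_card_of_surjective F ?_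
      rintro ⟨_, a, rfl⟩
      exact ⟨Quotient.mk'' a, rfl⟩
    exact le_trans h2 h.Qidx
  have hOp : ∀ x ∈ O, x ^ p = 1 := by
    intro x hx
    obtain ⟨a, rfl⟩ := (hO x).1 hx
    apply Subtype.ext
    show ((a : G) * w * (a : G)⁻¹) ^ p = 1
    rw [conj_pow]
    have : (w : G) ^ p = 1 := by
      have := congrArg Subtype.val hwp
      simpa using this
    rw [this, mul_one, mul_inv_cancel]
  have hcard := card_closure_le (M := ↥C) h.prime.pos O hOp
  let Z : Subgroup G := (Subgroup.closure (O : Set ↥C)).map C.subtype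
  have hwZ : (w : G) ∈ Z := by
    refine ⟨f 1, Subgroup.subset_closure ((hO _).2 ⟨1, rfl⟩), ?_⟩
    show ((1 : ↥A) : G) * w * ((1 : ↥A) : G)⁻¹ = w
    simp
  have hZle : Z ≤ Q ⊓ S := by
    rw [Subgroup.map_le_iff_le_comap, Subgroup.closure_le]
    intro x hx
    obtain ⟨a, rfl⟩ := (hO x).1 hx
    refine ⟨(hCmem.1 (f a).2).1, ?_⟩
    exact hS.conj_mem _ hwS _
  have hZA : A ≤ Subgroup.normalizer (Z : Set G) := by
    have key : ∀ a ∈ A, ∀ x ∈ Z, a * x * a⁻¹ ∈ Z := by
      intro a ha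
      have h1 : Z = Subgroup.closure (C.subtype '' (O : Set ↥C)) := MonoidHom.map_closure _ _
      have h2 : Z ≤ Z.comap (MulAut.conj a).toMonoidHom := by
        conv_lhs => rw [h1]
        rw [Subgroup.closure_le]
        rintro _ ⟨x, hx, rfl⟩
        obtain ⟨b, rfl⟩ := (hO x).1 hx
        show a * ((b : G) * w * (b : G)⁻¹) * a⁻¹ ∈ Z
        rw [h1]
        apply Subgroup.subset_closure
        refine ⟨f (⟨a, ha⟩ * b), (hO _).2 ⟨_, rfl⟩, ?_⟩
        show (a * (b : G)) * w * (a * (b : G))⁻¹ = _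
        group
      intro x hx
      exact h2 hx
    intro a ha
    rw [Subgroup.mem_normalizer_iff]
    intro x
    refine ⟨key a ha x, fun hx => ?_⟩
    have := key a⁻¹ (inv_mem ha) _ hx
    convert this using 1
    group
  have hZ1 : Z ≠ ⊥ := by
    intro h1
    rw [h1, Subgroup.mem_bot] at hwZ
    exact hw1 (Subtype.ext hwZ)
  refine ⟨Z, hZ1, hZle, hZA, ?_, ?_⟩
  · have h1 : Nat.card Z = Nat.card (Subgroup.closure (O : Set ↥C)) :=
      (Nat.card_congr ((Subgroup.closure (O : Set ↥C)).equivMapOfInjective _ C.subtype_injective).toEquiv).symm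
    rw [h1]
    refine le_trans hcard ?_
    have h2 : 1 ≤ p := h.prime.one_le
    exact le_trans (Nat.pow_le_pow_left h.ple _) (Nat.pow_le_pow_right (le_trans h2 h.ple) hOcard)
  · have h1 := h.normalizer_eq hZ1 (le_trans hZle (le_trans inf_le_left h.Qle)) hZA
    rw [← h1]
    exact Subgroup.centralizer_le_normalizer _

theorem Cfg.sup_eq_top (h : Cfg c p S A Q g) : S ⊔ A = ⊤ := by
  refine h.coatom.2 _ (lt_of_le_of_ne le_sup_right fun h1 => h.notle ?_)
  rw [h1]
  exact le_sup_left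

/-- A representative in `S` of the short suborbit. -/
theorem Cfg.exists_s (h : Cfg c p S A Q g) : ∃ s ∈ S, s ∉ A ∧ (cjS s A).relIndex A ≤ c := by
  have hS := h.norm
  have h1 : g ∈ S ⊔ A := by rw [h.sup_eq_top]; trivial
  obtain ⟨s, hs, a, ha, rfl⟩ := Subgroup.mem_sup_of_normal_left.1 h1
  refine ⟨s, hs, fun h2 => h.notmem (mul_mem h2 ha), ?_⟩
  have h2 : cjS (s * a) A = cjS s A := by
    ext x
    simp only [cjS, Subgroup.mem_map, MulEquiv.coe_toMonoidHom, MulAut.conj_apply]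
    constructor
    · rintro ⟨y, hy, rfl⟩
      exact ⟨a * y * a⁻¹, mul_mem (mul_mem ha hy) (inv_mem ha), by group⟩
    · rintro ⟨y, hy, rfl⟩
      exact ⟨a⁻¹ * y * a, mul_mem (mul_mem (inv_mem ha) hy) ha, by group⟩
  have h3 := h.idx
  rwa [h2] at h3

/-- `r`-subgroups of `S` centralising the small subgroup `Z` are small. -/
theorem Cfg.bound_of_large (h : Cfg c p S A Q g) (hAS : A ⊓ S ≠ ⊥) (K : ℕ) (hK : c ^ c ≤ K)
    (hl : ∀ Z : Subgroup ↥S, Nat.card Z ≤ K → IsPGroup p Z → ∃ (r : ℕ) (E : Subgroup ↥S), r.Prime ∧ r ≠ p ∧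
      E ≤ Subgroup.centralizer (Z : Set ↥S) ∧ IsPGroup r E ∧ c < Nat.card E) : False := by
  obtain ⟨Z, h1, h2, h3, h4, h5⟩ := h.exists_Z hAS
  have hZS : Z ≤ S := le_trans h2 inf_le_right
  have hZQ : Z ≤ Q := le_trans h2 inf_le_left
  obtain ⟨r, E, hr, hrp, hE, hEp, hEc⟩ := hl (Z.subgroupOf S) (by
      rw [Nat.card_congr (Subgroup.subgroupOfEquivOfLe hZS).toEquiv]
      exact le_trans h4 hK)
    ((h.Qp.to_le hZQ).of_equiv (Subgroup.subgroupOfEquivOfLe hZS).symm)
  have h6 : E.map S.subtype ≤ A := by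
    refine le_trans ?_ h5
    rintro _ ⟨e, he, rfl⟩
    rw [Subgroup.mem_centralizer_iff]
    intro z hz
    have := Subgroup.mem_centralizer_iff.1 (hE he) ⟨z, hZS hz⟩ (Subgroup.mem_subgroupOf.2 hz)
    exact congrArg Subtype.val this
  have h7 : IsPGroup r ↥(E.map S.subtype) := hEp.map _
  have h8 := h.cop hr hrp h6 h7
  rw [← Nat.card_congr (E.equivMapOfInjective _ S.subtype_injective).toEquiv] at h8
  omega

end Cfsg.Agent.H851.Sims
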