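import Cfsg.Agent.H851.SimsDefs

/-!
# S3386: interface for the classical groups of large rank in cross characteristic

`FormData F V` : a non-degenerate reflexive sesquilinear form `f` with a "quadratic form" `Q`
(`Q (u + v) = Q u + Q v + θ (f u v)`; `Q = 0`, `θ = 0` for symplectic and unitary spaces, `θ = id` for orthogonal ones).
`D.isom` : its isometry group. `FormsCore` : the statement that a small `r'`-subgroup `X` of `D.isom` centralises a big
`r`-subgroup of the commutator subgroup of `D.isom`.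
-/

set_option autoImplicit false

namespace Cfsg.Agent.H851.Sims

/-- A non-degenerate reflexive sesquilinear form with a (possibly zero) quadratic form. -/
structure FormData (F V : Type) [Field F] [AddCommGroup V] [Module F V] where
  σ : F →+* F
  f : V → V → F
  Q : V → F
  θ : F →+ F
  add_left : ∀ u v w, f (u + v) w = f u w + f v w
  smul_left : ∀ (a : F) u w, f (a • u) w = a * f u w
  add_right : ∀ u v w, f u (v + w) = f u v + f u w
  smul_right : ∀ (a : F) u w, f u (a • w) = σ a * f u w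
  refl : ∀ u v, f u v = 0 → f v u = 0
  nondeg : ∀ u, (∀ v, f u v = 0) → u = 0
  Q_add : ∀ u v, Q (u + v) = Q u + Q v + θ (f u v)
  Q_smul : ∀ (a : F) v, Q v = 0 → Q (a • v) = 0

/-- The isometry group. -/
def FormData.isom {F V : Type} [Field F] [AddCommGroup V] [Module F V] (D : FormData F V) : Subgroup (V ≃ₗ[F] V) where
  carrier := {g | (∀ u v, D.f (g u) (g v) = D.f u v) ∧ ∀ v, D.Q (g v) = D.Q v}
  mul_mem' {a b} ha hb := by
    refine ⟨fun u v => ?_, fun v => ?_⟩
    · rw [LinearEquiv.mul_apply, LinearEquiv.mul_apply, ha.1, hb.1]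
    · rw [LinearEquiv.mul_apply, ha.2, hb.2]
  one_mem' := ⟨fun _ _ => rfl, fun _ => rfl⟩
  inv_mem' {a} ha := by
    have h : ∀ u, a (a⁻¹ u) = u := fun u => LinearEquiv.apply_symm_apply a u
    refine ⟨fun u v => ?_, fun v => ?_⟩
    · rw [← ha.1 (a⁻¹ u) (a⁻¹ v), h, h]
    · rw [← ha.2 (a⁻¹ v), h]

/-- `X` acts on `V` through a set of `K` operators up to scalars. -/
def SmallMod {F V : Type} [Field F] [AddCommGroup V] [Module F V] (K : ℕ) (X : Subgroup (V ≃ₗ[F] V)) : Prop :=
  ∃ T : Finset (V ≃ₗ[F] V), (T : Set (V ≃ₗ[F] V)) ⊆ X ∧ T.card ≤ K ∧ ∀ x ∈ X, ∃ t ∈ T, ∃ a : F, ∀ v, x v = a • t v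

/-- A small `r'`-subgroup of an isometry group centralises a big `r`-subgroup of the commutator subgroup, in large dimension.
`hCW` is the existence of totally singular `X`-submodules (Chevalley-Warning), to be checked for each type of form. -/
def FormsCore : Prop :=
  ∀ c K d : ℕ, ∃ n₀ : ℕ, ∀ (F V : Type) [Field F] [Finite F] [AddCommGroup V] [Module F V] [Module.Finite F V]
    (r : ℕ) [Fact r.Prime] [CharP F r] (D : FormData F V) (X : Subgroup (V ≃ₗ[F] V)),
    n₀ ≤ Module.finrank F V → X ≤ D.isom → (Nat.card X).Coprime r → SmallMod K X →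
    (∀ W : Submodule F V, (∀ x ∈ X, ∀ w ∈ W, x w ∈ W) → d ≤ Module.finrank F W →
      ∃ v ∈ W, v ≠ 0 ∧ ∀ x ∈ X, ∀ y ∈ X, D.f (x v) (y v) = 0 ∧ D.Q (x v) = 0) →
    ∃ E : Subgroup (V ≃ₗ[F] V), E ≤ ⁅D.isom, D.isom⁆ ∧ E ≤ Subgroup.centralizer (X : Set (V ≃ₗ[F] V)) ∧
      IsPGroup r E ∧ c < Nat.card E

end Cfsg.Agent.H851.Sims
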